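import Mathlib
import Cfsg.Agent.H952.F4.Scott
import Cfsg.Agent.H952.F4.Gen

/-!
# T1, pattern T3 (helper25): elements of `A₈`

* `gen_y`, `gen_67` : generation of `A₈` by point stabilizers;
* `exists_two`, `exists_one` : transitivity;
* `inc` : `A_n → A_{n+1}`, `exists_inc`.
-/

set_option autoImplicit false

namespace Cfsg.Agent.R2.T1.T3

open Equiv Equiv.Perm
open Cfsg.Agent.H952.F4 (GenT)

/-- the alternating group -/
abbrev A (n : ℕ) := ↥(alternatingGroup (Fin n))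

theorem gen7b : GenT 7 {3} {3, 3} {7} :=
  Cfsg.Agent.H952.F4.Gen.genT_of (n := 5) (c[3, 4, 5]) (c[0, 4, 2] * c[1, 5, 6]) (by decide +kernel) (by decide +kernel)
    ![[], [], [2, 0, 2, 1, 3, 1, 3], [3, 1, 2], [0, 3, 1, 2, 1], [1, 3, 1, 2, 0], [2, 1, 2, 1, 3, 0, 3]]
    (by decide +kernel) (by decide +kernel) (by decide +kernel) (by decide +kernel)

/-! ### The inclusions -/

section
variable {n : ℕ}

/-- The embedding `A_n → A_{n+1}`. -/
noncomputable def inc : A n →* A (n + 1) :=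
  ((Perm.extendDomainHom (finSuccAboveEquiv (Fin.last n))).comp (alternatingGroup (Fin n)).subtype).codRestrict
    (alternatingGroup (Fin (n + 1))) fun g => by
      rw [Perm.mem_alternatingGroup]
      exact (Perm.sign_extendDomain _ _).trans (Perm.mem_alternatingGroup.1 g.2)

theorem ct_inc (g : A n) : ((inc g : A (n + 1)) : Perm (Fin (n + 1))).cycleType = (g : Perm (Fin n)).cycleType :=
  Perm.cycleType_extendDomain _

theorem inc_last (g : A n) : ((inc g : A (n + 1)) : Perm (Fin (n + 1))) (Fin.last n) = Fin.last n :=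
  Perm.extendDomain_apply_not_subtype (g : Perm (Fin n)) (finSuccAboveEquiv (Fin.last n)) (by simp)

theorem inc_castSucc (g : A n) (i : Fin n) :
    ((inc g : A (n + 1)) : Perm (Fin (n + 1))) i.castSucc = ((g : Perm (Fin n)) i).castSucc := by
  have h := Perm.extendDomain_apply_image (g : Perm (Fin n)) (finSuccAboveEquiv (Fin.last n)) i
  have e : ∀ j : Fin n, ((finSuccAboveEquiv (Fin.last n) j : {x : Fin (n + 1) // x ≠ Fin.last n}) : Fin (n + 1)) =
      j.castSucc := fun j => by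
    rw [finSuccAboveEquiv_apply]
    exact Fin.succAbove_last_apply j
  rw [e, e] at h
  exact h

theorem exists_inc (g : A (n + 1)) (hg : (g : Perm (Fin (n + 1))) (Fin.last n) = Fin.last n) : ∃ g', inc g' = g := by
  have hp : ∀ x : Fin (n + 1), (g : Perm (Fin (n + 1))) x ≠ Fin.last n ↔ x ≠ Fin.last n := by
    intro x
    rw [not_iff_not]
    constructor
    · intro h
      exact (g : Perm (Fin (n + 1))).injective (h.trans hg.symm)
    · rintro rfl
      exact hg
  set f : Fin n ≃ {x : Fin (n + 1) // x ≠ Fin.last n} := (finSuccAboveEquiv (Fin.last n)) with hf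
  set e : Perm (Fin n) := (f.trans ((g : Perm (Fin (n + 1))).subtypePerm hp)).trans f.symm with he
  have h1 : e.extendDomain f = g := by
    ext x
    by_cases hx : x ≠ Fin.last n
    · rw [Perm.extendDomain_apply_subtype e f hx, he]
      simp
    · push Not at hx
      subst hx
      rw [Perm.extendDomain_apply_not_subtype e f (by simp), hg]
  refine ⟨⟨e, ?_⟩, Subtype.ext h1⟩
  rw [Perm.mem_alternatingGroup, ← Perm.sign_extendDomain e f, h1]
  exact Perm.mem_alternatingGroup.1 g.2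

end

/-- `g 6 = 6`, `g 7 = 7`: `g` comes from `A₆` -/
theorem exists_inc2 (g : A 8) (h6 : (g : Perm (Fin 8)) 6 = 6) (h7 : (g : Perm (Fin 8)) 7 = 7) :
    ∃ g' : A 6, inc (inc g') = g := by
  obtain ⟨g1, h1⟩ := exists_inc (n := 7) g h7
  obtain ⟨g2, h2⟩ := exists_inc (n := 6) g1 (by
    have h := inc_castSucc g1 (Fin.last 6)
    rw [h1] at h
    have e : (Fin.last 6).castSucc = (6 : Fin 8) := rfl
    rw [e, h6] at h
    apply Fin.castSucc_injective
    rw [← h]
    rfl)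
  exact ⟨g2, by rw [h2, h1]⟩

/-! ### Special elements -/

/-- `(5 6 7)` -/
def y : A 8 := ⟨swap 5 6 * swap 6 7, by rw [mem_alternatingGroup]; decide +kernel⟩

/-- `(0 1 2 3 4)` -/
def x5 : A 8 := ⟨c[0, 1, 2, 3, 4], by rw [mem_alternatingGroup]; decide +kernel⟩

/-- `(6 7)(0 1)` -/
def t : A 8 := ⟨swap 6 7 * swap 0 1, by rw [mem_alternatingGroup]; decide +kernel⟩

theorem y5 : (y : Perm (Fin 8)) 5 = 6 := by decide +kernel
theorem y6 : (y : Perm (Fin 8)) 6 = 7 := by decide +kernel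
theorem y7 : (y : Perm (Fin 8)) 7 = 5 := by decide +kernel
theorem t6 : (t : Perm (Fin 8)) 6 = 7 := by decide +kernel
theorem t7 : (t : Perm (Fin 8)) 7 = 6 := by decide +kernel
theorem tt : t * t = 1 := by decide +kernel
theorem y3 : y * y * y = 1 := by decide +kernel
theorem x5_6 : (x5 : Perm (Fin 8)) 6 = 6 := by decide +kernel
theorem x5_7 : (x5 : Perm (Fin 8)) 7 = 7 := by decide +kernel
theorem x5_pow : x5 * x5 * x5 * x5 * x5 = 1 := by decide +kernel
theorem x5_y : x5 * y = y * x5 := by decide +kernel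
theorem x5y_six : (x5 * y) ^ 6 = x5 := by decide +kernel
theorem x5y_ten : (x5 * y) ^ 10 = y := by decide +kernel
theorem ct_x5 : (x5 : Perm (Fin 8)).cycleType = {5} := by decide +kernel
theorem ct_x5y : ((x5 * y : A 8) : Perm (Fin 8)).cycleType = {5, 3} := by decide +kernel

/-! ### Generation -/

/-- `(0 1)(0 k)` -/
def sk (k : Fin 8) : Perm (Fin 8) := swap 0 1 * swap 0 k

theorem sk_mem : ∀ k : Fin 8, k ≠ 0 → sk k ∈ alternatingGroup (Fin 8) := by
  intro k hk
  rw [mem_alternatingGroup, sk, Perm.sign_mul, sign_swap (by decide), sign_swap (by exact hk.symm)]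
  rfl

theorem gen_of (H : Subgroup (A 8)) (h : ∀ k : Fin 8, ∀ hk : k ≠ 0, (⟨sk k, sk_mem k hk⟩ : A 8) ∈ H) (g : A 8) :
    g ∈ H := by
  have h1 : (g : Perm (Fin 8)) ∈ H.map (alternatingGroup (Fin 8)).subtype := by
    refine Cfsg.Agent.H952.F4.Gen.mem_of_star (n := 6) _ ?_ ?_ g.2
    · rintro _ ⟨a, -, rfl⟩
      exact a.2
    · intro k hk
      exact ⟨_, h k hk, rfl⟩
  obtain ⟨a, ha, h2⟩ := h1
  rwa [← Subtype.ext h2]

theorem sk_fix7 : ∀ k : Fin 8, k ≠ 7 → sk k 7 = 7 := by decide +kernel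
theorem sk_fix6 : ∀ k : Fin 8, k ≠ 6 → sk k 6 = 6 := by decide +kernel

theorem gen_67 (H : Subgroup (A 8)) (h6 : ∀ g : A 8, (g : Perm (Fin 8)) 6 = 6 → g ∈ H)
    (h7 : ∀ g : A 8, (g : Perm (Fin 8)) 7 = 7 → g ∈ H) (g : A 8) : g ∈ H := by
  refine gen_of H (fun k hk => ?_) g
  by_cases h : k = 7
  · exact h6 _ (sk_fix6 k (by rw [h]; decide))
  · exact h7 _ (sk_fix7 k h)

theorem gen_y (H : Subgroup (A 8)) (h67 : ∀ g : A 8, (g : Perm (Fin 8)) 6 = 6 → (g : Perm (Fin 8)) 7 = 7 → g ∈ H)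
    (hy : y ∈ H) (g : A 8) : g ∈ H := by
  refine gen_of H (fun k hk => ?_) g
  by_cases h : k = 7
  · subst h
    have h1 : y⁻¹ * y⁻¹ * (⟨sk 7, sk_mem 7 hk⟩ : A 8) * y * y ∈ H := h67 _ (by revert hk; decide +kernel)
      (by revert hk; decide +kernel)
    have h2 : (⟨sk 7, sk_mem 7 hk⟩ : A 8) = y * y * (y⁻¹ * y⁻¹ * (⟨sk 7, sk_mem 7 hk⟩ : A 8) * y * y) * y⁻¹ * y⁻¹ := by
      group
    rw [h2]
    exact mul_mem (mul_mem (mul_mem (mul_mem hy hy) h1) (inv_mem hy)) (inv_mem hy)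
  by_cases h' : k = 6
  · subst h'
    have h1 : y⁻¹ * (⟨sk 6, sk_mem 6 hk⟩ : A 8) * y ∈ H := h67 _ (by revert hk; decide +kernel)
      (by revert hk; decide +kernel)
    have h2 : (⟨sk 6, sk_mem 6 hk⟩ : A 8) = y * (y⁻¹ * (⟨sk 6, sk_mem 6 hk⟩ : A 8) * y) * y⁻¹ := by
      group
    rw [h2]
    exact mul_mem (mul_mem hy h1) (inv_mem hy)
  exact h67 _ (sk_fix6 k h') (sk_fix7 k h)

/-! ### Transitivity -/

theorem exists_two (i j : Fin 8) (hij : i ≠ j) :
    ∃ a : A 8, (a : Perm (Fin 8)) 6 = i ∧ (a : Perm (Fin 8)) 7 = j := by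
  have key : ∀ i j : Fin 8, i ≠ j → ∃ p : Perm (Fin 8), p 6 = i ∧ p 7 = j := by
    intro i j hij
    refine ⟨swap 7 j * swap 6 (swap 7 j i), ?_, ?_⟩
    · rw [Perm.mul_apply, swap_apply_left, swap_apply_self]
    · have h : (7 : Fin 8) ≠ swap 7 j i := by
        intro h
        apply hij
        have h1 := congrArg (swap 7 j) h
        rw [swap_apply_self, swap_apply_left] at h1
        exact h1.symm
      rw [Perm.mul_apply, swap_apply_of_ne_of_ne (by decide) h, swap_apply_left]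
  obtain ⟨p, h6, h7⟩ := key i j hij
  rcases Int.units_eq_one_or (sign p) with h | h
  · exact ⟨⟨p, mem_alternatingGroup.2 h⟩, h6, h7⟩
  · refine ⟨⟨p * swap 0 1, ?_⟩, ?_, ?_⟩
    · rw [mem_alternatingGroup, Perm.sign_mul, h, sign_swap (by decide)]
      rfl
    · show (p * swap 0 1 : Perm (Fin 8)) 6 = i
      rw [Perm.mul_apply, swap_apply_of_ne_of_ne (by decide) (by decide), h6]
    · show (p * swap 0 1 : Perm (Fin 8)) 7 = j
      rw [Perm.mul_apply, swap_apply_of_ne_of_ne (by decide) (by decide), h7]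

theorem exists_one (i j : Fin 8) (hi6 : i ≠ 6) (hi7 : i ≠ 7) (hj6 : j ≠ 6) (hj7 : j ≠ 7) :
    ∃ a : A 8, (a : Perm (Fin 8)) 6 = 6 ∧ (a : Perm (Fin 8)) 7 = 7 ∧ (a : Perm (Fin 8)) i = j := by
  have key : ∀ i : Fin 8, i ≠ 6 → i ≠ 7 → ∃ q : Perm (Fin 8), q 6 = 6 ∧ q 7 = 7 ∧ q i = i ∧ sign q = -1 := by
    intro i h1 h2
    by_cases h : i = 0 ∨ i = 1
    · refine ⟨swap 2 3, by decide +kernel, by decide +kernel, ?_, by decide +kernel⟩
      rcases h with rfl | rfl <;> decide +kernel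
    · push Not at h
      refine ⟨swap 0 1, by decide +kernel, by decide +kernel, swap_apply_of_ne_of_ne h.1 h.2, by decide +kernel⟩
  obtain ⟨q, q6, q7, qi, qs⟩ := key i hi6 hi7
  by_cases hij : i = j
  · exact ⟨1, rfl, rfl, hij⟩
  refine ⟨⟨swap i j * q, ?_⟩, ?_, ?_, ?_⟩
  · rw [mem_alternatingGroup, Perm.sign_mul, qs, sign_swap hij]
    rfl
  · show (swap i j * q) 6 = 6
    rw [Perm.mul_apply, q6, swap_apply_of_ne_of_ne hi6.symm hj6.symm]
  · show (swap i j * q) 7 = 7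
    rw [Perm.mul_apply, q7, swap_apply_of_ne_of_ne hi7.symm hj7.symm]
  · show (swap i j * q) i = j
    rw [Perm.mul_apply, qi, swap_apply_left]

end Cfsg.Agent.R2.T1.T3
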