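import Mathlib
import Cfsg.Agent.R2.T1.T3.Perm

/-!
# T1, pattern T3 (helper25): module theory

* `Hyp` : the hypotheses;
* `core` : they are contradictory.
-/

set_option autoImplicit false
set_option linter.unusedSectionVars false

namespace Cfsg.Agent.R2.T1.T3

open Equiv Equiv.Perm Module
open Cfsg.Agent.H952.F4 (ev es GenT)
open Cfsg.Agent.H952.F4.Scott (scott_form)

variable {K W : Type*} [Field K] [AddCommGroup W] [Module K W] [FiniteDimensional K W]

/-- the hypotheses -/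
structure Hyp (ρ : Representation K (A 8) W) (B : W →ₗ[K] W →ₗ[K] K) : Prop where
  two : (2 : K) = 0
  dim : finrank K W = 56
  nd : ∀ v, (∀ w, B v w = 0) → v = 0
  inv : ∀ g v w, B (ρ g v) (ρ g w) = B v w
  symm : ∀ v w, B v w = B w v
  fix : ρ.invariants = ⊥
  c3 : ∀ a : A 8, (a : Perm (Fin 8)).cycleType = {3} → ev (ρ a) 1 = 32
  c33 : ∀ a : A 8, (a : Perm (Fin 8)).cycleType = {3, 3} → ev (ρ a) 1 = 20
  c5 : ∀ a : A 8, (a : Perm (Fin 8)).cycleType = {5} → ev (ρ a) 1 = 16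
  c7 : ∀ a : A 8, (a : Perm (Fin 8)).cycleType = {7} → ev (ρ a) 1 = 8
  c53 : ∀ a : A 8, (a : Perm (Fin 8)).cycleType = {5, 3} → ev (ρ a) 1 = 8

variable {ρ : Representation K (A 8) W} {B : W →ₗ[K] W →ₗ[K] K}

theorem finrank_map {V : Type*} [AddCommGroup V] [Module K V] [FiniteDimensional K V] (f : W →ₗ[K] V)
    (P : Submodule K W) (hf : ∀ w ∈ P, f w = 0 → w = 0) : finrank K ↥(P.map f) = finrank K ↥P := by
  have h1 := LinearMap.finrank_range_add_finrank_ker (f ∘ₗ P.subtype)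
  have h2 : LinearMap.ker (f ∘ₗ P.subtype) = ⊥ := by
    rw [eq_bot_iff]
    intro w hw
    rw [Submodule.mem_bot]
    exact Subtype.ext (hf w w.2 (LinearMap.mem_ker.1 hw))
  rw [h2, finrank_bot, add_zero, LinearMap.range_comp, Submodule.range_subtype] at h1
  exact h1

/-- orthogonal subspaces of a nondegenerate space -/
theorem perp_bound (B : W →ₗ[K] W →ₗ[K] K) (N P D : Submodule K W) (hP : P ≤ N) (hD : D ≤ N)
    (hnd : ∀ n ∈ N, (∀ n' ∈ N, B n n' = 0) → n = 0) (horth : ∀ p ∈ P, ∀ d ∈ D, B p d = 0) :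
    finrank K ↥P + finrank K ↥D ≤ finrank K ↥N := by
  let β : ↥N →ₗ[K] Module.Dual K ↥N := B.domRestrict₁₂ N N
  have hβ : ∀ n n' : ↥N, β n n' = B n n' := fun _ _ => rfl
  let P' : Submodule K ↥N := P.comap N.subtype
  let D' : Submodule K ↥N := D.comap N.subtype
  have h1 : finrank K ↥(P'.map β) = finrank K ↥P' := finrank_map β P' (by
    intro n _ hn
    apply Subtype.ext
    refine hnd n n.2 fun n' hn' => ?_
    rw [← hβ n ⟨n', hn'⟩, hn]
    rfl)
  have h2 : P'.map β ≤ D'.dualAnnihilator := by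
    rintro _ ⟨p, hp, rfl⟩
    rw [Submodule.mem_dualAnnihilator]
    intro d hd
    exact horth p hp d hd
  have h3 := Submodule.finrank_mono h2
  have h4 := Subspace.finrank_add_finrank_dualAnnihilator_eq D'
  have h5 : finrank K ↥P' = finrank K ↥P := by
    rw [← finrank_map N.subtype P' (fun w _ hw => Subtype.ext hw)]
    rw [Submodule.map_comap_subtype, inf_eq_right.2 hP]
  have h6 : finrank K ↥D' = finrank K ↥D := by
    rw [← finrank_map N.subtype D' (fun w _ hw => Subtype.ext hw)]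
    rw [Submodule.map_comap_subtype, inf_eq_right.2 hD]
  omega

theorem rho_mul (g h : A 8) (w : W) : ρ (g * h) w = ρ g (ρ h w) := by
  rw [map_mul, Module.End.mul_apply]

theorem rho_one (w : W) : ρ 1 w = w := by rw [map_one, Module.End.one_apply]

theorem two_smul_zero (h : Hyp ρ B) (w : W) : w + w = 0 := by
  rw [← two_smul K w, h.two, zero_smul]

theorem neg_eq (h : Hyp ρ B) (w : W) : -w = w := neg_eq_of_add_eq_zero_left (two_smul_zero h w)

theorem add_k (h : Hyp ρ B) (a : K) : a + a = 0 := by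
  rw [← two_mul, h.two, zero_mul]

/-! ### The fixed spaces -/

variable (ρ) in
/-- the vectors fixed by `A₇` -/
def U : Submodule K W where
  carrier := {w | ∀ g : A 8, (g : Perm (Fin 8)) 7 = 7 → ρ g w = w}
  add_mem' := fun {a b} ha hb g hg => by rw [map_add, ha g hg, hb g hg]
  zero_mem' := fun g _ => map_zero _
  smul_mem' := fun c a ha g hg => by rw [map_smul, ha g hg]

variable (ρ) in
/-- the vectors fixed by `A₆` -/
def W6 : Submodule K W where
  carrier := {w | ∀ g : A 8, (g : Perm (Fin 8)) 6 = 6 → (g : Perm (Fin 8)) 7 = 7 → ρ g w = w}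
  add_mem' := fun {a b} ha hb g hg hg' => by rw [map_add, ha g hg hg', hb g hg hg']
  zero_mem' := fun g _ _ => map_zero _
  smul_mem' := fun c a ha g hg hg' => by rw [map_smul, ha g hg hg']

theorem mem_U {w : W} : w ∈ U ρ ↔ ∀ g : A 8, (g : Perm (Fin 8)) 7 = 7 → ρ g w = w := Iff.rfl

theorem mem_W6 {w : W} : w ∈ W6 ρ ↔ ∀ g : A 8, (g : Perm (Fin 8)) 6 = 6 → (g : Perm (Fin 8)) 7 = 7 → ρ g w = w :=
  Iff.rfl

theorem dim_U (h : Hyp ρ B) : 2 ≤ finrank K ↥(U ρ) := by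
  obtain ⟨a, b, hgen, ha, hb, hab⟩ := gen7b
  have hs := scott_form (V := W) (MonoidHom.comp ρ inc : Representation K (A 7) W) hgen B h.nd
    (fun g v w => h.inv (inc g) v w)
  have e1 : ev ((MonoidHom.comp ρ inc : Representation K (A 7) W) a) 1 = 32 := h.c3 _ (by rw [ct_inc, ha])
  have e2 : ev ((MonoidHom.comp ρ inc : Representation K (A 7) W) b) 1 = 20 := h.c33 _ (by rw [ct_inc, hb])
  have e3 : ev ((MonoidHom.comp ρ inc : Representation K (A 7) W) (a * b)) 1 = 8 := h.c7 _ (by rw [ct_inc, hab])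
  rw [e1, e2, e3, h.dim] at hs
  have hle : Representation.invariants (MonoidHom.comp ρ inc : Representation K (A 7) W) ≤ U ρ := by
    intro w hw g hg
    obtain ⟨g', rfl⟩ := exists_inc (n := 7) g hg
    exact (Representation.mem_invariants (ρ := (MonoidHom.comp ρ inc : Representation K (A 7) W)) w).1 hw g'
  have := Submodule.finrank_mono hle
  omega

theorem dim_W6 (h : Hyp ρ B) : 6 ≤ finrank K ↥(W6 ρ) := by
  obtain ⟨a, b, hgen, ha, hb, hab⟩ := Cfsg.Agent.H952.F4.Gen.gen6b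
  let σ : Representation K (A 6) W := MonoidHom.comp ρ (MonoidHom.comp (inc (n := 7)) (inc (n := 6)))
  have hs := scott_form (V := W) σ hgen B h.nd (fun g v w => h.inv (inc (inc g)) v w)
  have e1 : ev (σ a) 1 = 32 := h.c3 _ (by show (((inc (inc a) : A 8)) : Perm (Fin 8)).cycleType = _; rw [ct_inc, ct_inc, ha])
  have e2 : ev (σ b) 1 = 20 := h.c33 _ (by show (((inc (inc b) : A 8)) : Perm (Fin 8)).cycleType = _; rw [ct_inc, ct_inc, hb])
  have e3 : ev (σ (a * b)) 1 = 16 := h.c5 _ (by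
    show (((inc (inc (a * b)) : A 8)) : Perm (Fin 8)).cycleType = _
    rw [ct_inc, ct_inc, hab])
  rw [e1, e2, e3, h.dim] at hs
  have hle : Representation.invariants σ ≤ W6 ρ := by
    intro w hw g h6 h7
    obtain ⟨g', rfl⟩ := exists_inc2 g h6 h7
    exact (Representation.mem_invariants (ρ := σ) w).1 hw g'
  have := Submodule.finrank_mono hle
  omega

/-! ### Generation -/

variable (ρ) in
/-- the stabilizer of a vector -/
def stab (w : W) : Subgroup (A 8) where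
  carrier := {g | ρ g w = w}
  mul_mem' := fun {a b} ha hb => by
    show ρ (a * b) w = w
    rw [rho_mul, show ρ b w = w from hb, show ρ a w = w from ha]
  one_mem' := rho_one w
  inv_mem' := fun {a} ha => by
    show ρ a⁻¹ w = w
    have h : ρ a⁻¹ (ρ a w) = w := by rw [← rho_mul, inv_mul_cancel, rho_one]
    rwa [show ρ a w = w from ha] at h

theorem zero_of_all (h : Hyp ρ B) {w : W} (hw : ∀ g, ρ g w = w) : w = 0 := by
  have h1 : w ∈ ρ.invariants := (Representation.mem_invariants (ρ := ρ) w).2 hw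
  rwa [h.fix, Submodule.mem_bot] at h1

theorem zero_of_67 (h : Hyp ρ B) {w : W} (h6 : ∀ g : A 8, (g : Perm (Fin 8)) 6 = 6 → ρ g w = w) (h7 : w ∈ U ρ) :
    w = 0 := zero_of_all h (gen_67 (stab ρ w) h6 h7)

theorem zero_of_y (h : Hyp ρ B) {w : W} (h6 : w ∈ W6 ρ) (hy : ρ y w = w) : w = 0 :=
  zero_of_all h (gen_y (stab ρ w) h6 hy)

/-! ### The translates -/

theorem exists_tr7 (i : Fin 8) : ∃ a : A 8, (a : Perm (Fin 8)) 7 = i ∧ (i = 7 → a = 1) := by
  by_cases h : i = 7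
  · exact ⟨1, h.symm, fun _ => rfl⟩
  · by_cases h' : i = 6
    · obtain ⟨a, -, h2⟩ := exists_two 7 i (by rw [h']; decide)
      exact ⟨a, h2, fun h3 => absurd h3 h⟩
    · obtain ⟨a, -, h2⟩ := exists_two 6 i (Ne.symm h')
      exact ⟨a, h2, fun h3 => absurd h3 h⟩

/-- an element moving 7 to `i` -/
noncomputable def tr (i : Fin 8) : A 8 := (exists_tr7 i).choose

theorem tr_spec (i : Fin 8) : (tr i : Perm (Fin 8)) 7 = i := (exists_tr7 i).choose_spec.1

theorem tr_seven : tr 7 = 1 := (exists_tr7 7).choose_spec.2 rfl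

variable (ρ) in
/-- the translates of the vectors fixed by `A₇` -/
noncomputable def v (i : Fin 8) : W →ₗ[K] W := ρ (tr i)

theorem v_seven (u : W) : v ρ 7 u = u := by rw [v, tr_seven, rho_one]

theorem rho_v {u : W} (hu : u ∈ U ρ) (g : A 8) (i : Fin 8) : ρ g (v ρ i u) = v ρ ((g : Perm (Fin 8)) i) u := by
  have h := hu ((tr ((g : Perm (Fin 8)) i))⁻¹ * (g * tr i)) (by
    show (((tr ((g : Perm (Fin 8)) i) : Perm (Fin 8)))⁻¹ * ((g : Perm (Fin 8)) * (tr i : Perm (Fin 8)))) 7 = 7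
    rw [Perm.mul_apply, Perm.mul_apply, tr_spec, Perm.inv_eq_iff_eq, tr_spec])
  have h1 := congrArg (ρ (tr ((g : Perm (Fin 8)) i))) h
  rw [← rho_mul, mul_inv_cancel_left, rho_mul] at h1
  exact h1

theorem v_inj {u : W} {i : Fin 8} (h : v ρ i u = 0) : u = 0 := by
  have h1 := congrArg (ρ (tr i)⁻¹) h
  rwa [v, ← rho_mul, inv_mul_cancel, rho_one, map_zero] at h1

theorem sum_v (h : Hyp ρ B) {u : W} (hu : u ∈ U ρ) : ∑ i, v ρ i u = 0 := by
  apply zero_of_all h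
  intro g
  rw [map_sum]
  simp only [rho_v hu]
  exact Equiv.sum_comp (g : Perm (Fin 8)) (fun i => v ρ i u)

theorem B_rho (h : Hyp ρ B) {u : W} (hu : u ∈ U ρ) (g : A 8) (w : W) (i : Fin 8) :
    B (ρ g w) (v ρ ((g : Perm (Fin 8)) i) u) = B w (v ρ i u) := by
  rw [← rho_v hu, h.inv]

theorem B_ne (h : Hyp ρ B) {u u' : W} (hu : u ∈ U ρ) (hu' : u' ∈ U ρ) {i j : Fin 8} (hij : i ≠ j) :
    B (v ρ i u) (v ρ j u') = B (v ρ 6 u) (v ρ 7 u') := by
  obtain ⟨a, h6, h7⟩ := exists_two i j hij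
  conv_lhs => rw [← h6, ← h7]
  rw [← rho_v hu, ← rho_v hu', h.inv]

theorem B_eq (h : Hyp ρ B) {u u' : W} (hu : u ∈ U ρ) (hu' : u' ∈ U ρ) (i : Fin 8) :
    B (v ρ i u) (v ρ i u') = B (v ρ 6 u) (v ρ 7 u') := by
  have h1 : B (∑ k, v ρ k u) (v ρ i u') = 0 := by rw [sum_v h hu, map_zero, LinearMap.zero_apply]
  rw [map_sum, LinearMap.sum_apply, ← Finset.add_sum_erase _ _ (Finset.mem_univ i),
    Finset.sum_congr rfl (fun k hk => B_ne h hu hu' (Finset.ne_of_mem_erase hk)), Finset.sum_const,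
    Finset.card_erase_of_mem (Finset.mem_univ i), Finset.card_univ, Fintype.card_fin] at h1
  have h2 : (8 - 1) • B (v ρ 6 u) (v ρ 7 u') = B (v ρ 6 u) (v ρ 7 u') := by
    rw [show (8 - 1 : ℕ) = 2 * 3 + 1 by norm_num, add_smul, one_smul, mul_comm, mul_smul, two_smul, add_k h,
      smul_zero, zero_add]
  rw [h2] at h1
  have h3 := eq_neg_of_add_eq_zero_left h1
  rw [h3]
  exact neg_eq_of_add_eq_zero_left (add_k h _)

theorem B_v (h : Hyp ρ B) {u u' : W} (hu : u ∈ U ρ) (hu' : u' ∈ U ρ) (i j : Fin 8) :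
    B (v ρ i u) (v ρ j u') = B (v ρ 6 u) (v ρ 7 u') := by
  by_cases hij : i = j
  · subst hij
    exact B_eq h hu hu' i
  · exact B_ne h hu hu' hij

/-! ### The submodule `D` -/

variable (ρ B) in
/-- the orthogonal space of the differences of the `v_i(u)` -/
def D : Submodule K W where
  carrier := {w | ∀ u ∈ U ρ, ∀ i j, B w (v ρ i u) = B w (v ρ j u)}
  add_mem' := fun {a b} ha hb u hu i j => by
    rw [map_add, LinearMap.add_apply, LinearMap.add_apply, ha u hu i j, hb u hu i j]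
  zero_mem' := fun u _ i j => by rw [map_zero, LinearMap.zero_apply, LinearMap.zero_apply]
  smul_mem' := fun c a ha u hu i j => by
    rw [map_smul, LinearMap.smul_apply, LinearMap.smul_apply, ha u hu i j]

theorem mem_D {w : W} : w ∈ D ρ B ↔ ∀ u ∈ U ρ, ∀ i j, B w (v ρ i u) = B w (v ρ j u) := Iff.rfl

theorem D_stable (h : Hyp ρ B) {w : W} (hw : w ∈ D ρ B) (g : A 8) : ρ g w ∈ D ρ B := by
  intro u hu i j
  have e : ∀ k, B (ρ g w) (v ρ k u) = B w (v ρ ((g : Perm (Fin 8))⁻¹ k) u) := fun k => by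
    have h1 := B_rho h hu g w ((g : Perm (Fin 8))⁻¹ k)
    have h2 : (g : Perm (Fin 8)) ((g : Perm (Fin 8))⁻¹ k) = k := by simp
    rwa [h2] at h1
  rw [e, e]
  exact hw u hu _ _

theorem v_mem_D (h : Hyp ρ B) {u : W} (hu : u ∈ U ρ) (k : Fin 8) : v ρ k u ∈ D ρ B := by
  intro u' hu' i j
  rw [B_v h hu hu' k i, B_v h hu hu' k j]

theorem v6_mem {u : W} (hu : u ∈ U ρ) {g : A 8} (hg : (g : Perm (Fin 8)) 6 = 6) : ρ g (v ρ 6 u) = v ρ 6 u := by
  rw [rho_v hu, hg]

theorem v6_mem_W6 {u : W} (hu : u ∈ U ρ) : v ρ 6 u ∈ W6 ρ := fun _ h6 _ => v6_mem hu h6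

theorem U_le_W6 : U ρ ≤ W6 ρ := fun _ hu g _ h7 => hu g h7

variable (ρ) in
/-- the sum of the fixed spaces of the two groups `A₇` containing `A₆` -/
noncomputable def P : Submodule K W := (U ρ).map (v ρ 6) ⊔ U ρ

theorem mem_P {w : W} : w ∈ P ρ ↔ ∃ u1 ∈ U ρ, ∃ u2 ∈ U ρ, w = v ρ 6 u1 + u2 := by
  rw [P, Submodule.mem_sup]
  constructor
  · rintro ⟨_, ⟨u1, h1, rfl⟩, u2, h2, rfl⟩
    exact ⟨u1, h1, u2, h2, rfl⟩
  · rintro ⟨u1, h1, u2, h2, rfl⟩
    exact ⟨_, ⟨u1, h1, rfl⟩, u2, h2, rfl⟩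

theorem P_le (h : Hyp ρ B) : P ρ ≤ W6 ρ ⊓ D ρ B := by
  intro w hw
  obtain ⟨u1, h1, u2, h2, rfl⟩ := mem_P.1 hw
  refine ⟨(W6 ρ).add_mem (v6_mem_W6 h1) (U_le_W6 h2), (D ρ B).add_mem (v_mem_D h h1 6) ?_⟩
  have := v_mem_D h h2 7
  rwa [v_seven] at this

theorem zero_of_v6 (h : Hyp ρ B) {u u' : W} (hu : u ∈ U ρ) (hu' : u' ∈ U ρ) (he : v ρ 6 u = u') : u = 0 := by
  have h1 : v ρ 6 u = 0 := zero_of_67 h (fun g hg => v6_mem hu hg) (by rw [he]; exact hu')
  exact v_inj h1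

theorem dim_P (h : Hyp ρ B) : finrank K ↥(P ρ) = 2 * finrank K ↥(U ρ) := by
  have h1 := Submodule.finrank_sup_add_finrank_inf_eq ((U ρ).map (v ρ 6)) (U ρ)
  have h2 : (U ρ).map (v ρ 6) ⊓ U ρ = ⊥ := by
    rw [eq_bot_iff]
    rintro _ ⟨⟨u, hu, rfl⟩, h3⟩
    rw [Submodule.mem_bot]
    rw [zero_of_v6 h hu h3 rfl, map_zero]
  have h3 : finrank K ↥((U ρ).map (v ρ 6)) = finrank K ↥(U ρ) :=
    finrank_map (v ρ 6) (U ρ) (fun w _ hw => v_inj hw)
  rw [h2, finrank_bot, h3] at h1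
  rw [P]
  omega

end Cfsg.Agent.R2.T1.T3
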