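import Mathlib
import Cfsg.Agent.R2.T1.T3.Core

/-!
# T1, pattern T3 (helper25): module theory, part 2

* `core` : the hypotheses `Hyp` are contradictory.
-/

set_option autoImplicit false
set_option linter.unusedSectionVars false

namespace Cfsg.Agent.R2.T1.T3

open Equiv Equiv.Perm Module
open Cfsg.Agent.H952.F4 (ev es GenT)

variable {K W : Type*} [Field K] [AddCommGroup W] [Module K W] [FiniteDimensional K W]
variable {ρ : Representation K (A 8) W} {B : W →ₗ[K] W →ₗ[K] K}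

theorem mem_es {g : A 8} {w : W} : w ∈ es (ρ g) 1 ↔ ρ g w = w := by
  show w ∈ Module.End.eigenspace (ρ g) 1 ↔ _
  rw [Module.End.mem_eigenspace_iff, one_smul]

theorem rho_pow_fix {g : A 8} {w : W} (h : ρ g w = w) (n : ℕ) : ρ (g ^ n) w = w := by
  induction n with
  | zero => rw [pow_zero, rho_one]
  | succ n ih => rw [pow_succ, rho_mul, h, ih]

variable (ρ) in
/-- the space `N` -/
def N : Submodule K W where
  carrier := {w | ρ x5 w = w ∧ w + ρ y w + ρ y (ρ y w) = 0}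
  add_mem' := fun {a b} ha hb => by
    refine ⟨by rw [map_add, ha.1, hb.1], ?_⟩
    rw [map_add, map_add]
    calc a + b + (ρ y a + ρ y b) + (ρ y (ρ y a) + ρ y (ρ y b))
        = (a + ρ y a + ρ y (ρ y a)) + (b + ρ y b + ρ y (ρ y b)) := by abel
      _ = 0 := by rw [ha.2, hb.2, add_zero]
  zero_mem' := ⟨map_zero _, by simp⟩
  smul_mem' := fun c a ha => by
    refine ⟨by rw [map_smul, ha.1], ?_⟩
    rw [map_smul, map_smul, ← smul_add, ← smul_add, ha.2, smul_zero]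

theorem dim_N (h : Hyp ρ B) : finrank K ↥(N ρ) ≤ 8 := by
  let f : ↥(es (ρ x5) 1) →ₗ[K] W := (1 + ρ y + ρ y * ρ y) ∘ₗ (es (ρ x5) 1).subtype
  have hf : ∀ w : ↥(es (ρ x5) 1), f w = (w : W) + ρ y w + ρ y (ρ y w) := fun _ => rfl
  have h1 := LinearMap.finrank_range_add_finrank_ker f
  have e1 : finrank K ↥(es (ρ x5) 1) = 16 := h.c5 _ ct_x5
  have e2 : finrank K ↥(es (ρ (x5 * y)) 1) = 8 := h.c53 _ ct_x5y
  have h2 : es (ρ (x5 * y)) 1 ≤ LinearMap.range f := by
    intro w hw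
    rw [mem_es] at hw
    have h3 : ρ x5 w = w := by
      have := rho_pow_fix hw 6
      rwa [x5y_six] at this
    have h4 : ρ y w = w := by
      have := rho_pow_fix hw 10
      rwa [x5y_ten] at this
    refine ⟨⟨w, mem_es.2 h3⟩, ?_⟩
    rw [hf]
    show w + ρ y w + ρ y (ρ y w) = w
    rw [h4, h4, two_smul_zero h, zero_add]
  have h3 : N ρ ≤ (LinearMap.ker f).map (es (ρ x5) 1).subtype := by
    intro w hw
    refine ⟨⟨w, mem_es.2 hw.1⟩, ?_, rfl⟩
    exact LinearMap.mem_ker.2 hw.2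
  have h4 := Submodule.finrank_mono h2
  have h5 := Submodule.finrank_mono h3
  rw [Submodule.finrank_map_subtype_eq] at h5
  omega

theorem yyy (w : W) : ρ y (ρ y (ρ y w)) = w := by
  rw [← rho_mul, ← rho_mul, y3, rho_one]

theorem x5_comm (w : W) : ρ x5 (ρ y w) = ρ y (ρ x5 w) := by
  rw [← rho_mul, x5_y, rho_mul]

theorem N_nd (h : Hyp ρ B) : ∀ n ∈ N ρ, (∀ n' ∈ N ρ, B n n' = 0) → n = 0 := by
  intro n hn hn'
  apply h.nd
  intro w
  set a := w + ρ x5 w + ρ x5 (ρ x5 w) + ρ x5 (ρ x5 (ρ x5 w)) + ρ x5 (ρ x5 (ρ x5 (ρ x5 w))) with ha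
  have h5 : ρ x5 (ρ x5 (ρ x5 (ρ x5 (ρ x5 w)))) = w := by
    rw [← rho_mul, ← rho_mul, ← rho_mul, ← rho_mul]
    rw [x5_pow, rho_one]
  have ha5 : ρ x5 a = a := by
    rw [ha]
    simp only [map_add]
    rw [h5]
    abel
  have hb : ρ y a + ρ y (ρ y a) ∈ N ρ := by
    refine ⟨?_, ?_⟩
    · rw [map_add, x5_comm, x5_comm, x5_comm, ha5]
    · simp only [map_add]
      rw [yyy]
      calc ρ y a + ρ y (ρ y a) + (ρ y (ρ y a) + a) + (a + ρ y a)
          = (ρ y a + ρ y a) + (ρ y (ρ y a) + ρ y (ρ y a)) + (a + a) := by abel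
        _ = 0 := by simp only [two_smul_zero h]
  have h1 := hn' _ hb
  have hx : ∀ z, B n (ρ x5 z) = B n z := fun z => by
    conv_lhs => rw [← hn.1]
    rw [h.inv]
  have h2 : B n a = B n w := by
    rw [ha]
    simp only [map_add, hx]
    have := add_k h (B n w)
    linear_combination 2 * this
  have e1 : ρ y n + ρ y (ρ y n) = n := by
    have h3 : n + (ρ y n + ρ y (ρ y n)) = 0 := by rw [← add_assoc]; exact hn.2
    rw [eq_neg_of_add_eq_zero_right h3, neg_eq h]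
  have h3 : B n (ρ y a + ρ y (ρ y a)) = B n a := by
    have e2 : B n (ρ y a) = B (ρ y (ρ y n)) a := by
      rw [← h.inv y (ρ y (ρ y n)), yyy]
    have e3 : B n (ρ y (ρ y a)) = B (ρ y n) a := by
      rw [← h.inv y (ρ y n), ← h.inv y (ρ y (ρ y n)), yyy]
    rw [map_add, e2, e3, ← LinearMap.add_apply, ← map_add, add_comm, e1]
  rw [← h2, ← h3, h1]

theorem map_N (h : Hyp ρ B) {w : W} (hw : w ∈ W6 ρ) : w + ρ y w ∈ N ρ := by
  have hx : ρ x5 w = w := hw x5 x5_6 x5_7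
  refine ⟨?_, ?_⟩
  · rw [map_add, x5_comm, hx]
  · simp only [map_add]
    rw [yyy]
    calc w + ρ y w + (ρ y w + ρ y (ρ y w)) + (ρ y (ρ y w) + w)
        = (w + w) + (ρ y w + ρ y w) + (ρ y (ρ y w) + ρ y (ρ y w)) := by abel
      _ = 0 := by simp only [two_smul_zero h]

variable (ρ) in
/-- the map `1 + y` -/
def oy : W →ₗ[K] W := 1 + ρ y

theorem oy_apply (w : W) : oy ρ w = w + ρ y w := rfl

theorem oy_inj (h : Hyp ρ B) {w : W} (hw : w ∈ W6 ρ) (h0 : oy ρ w = 0) : w = 0 := by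
  apply zero_of_y h hw
  rw [oy_apply] at h0
  rw [eq_neg_of_add_eq_zero_right h0, neg_eq h]

theorem B_oy (h : Hyp ρ B) {p d : W} (hp : p ∈ P ρ) (hd : d ∈ D ρ B) : B (oy ρ p) (oy ρ d) = 0 := by
  have hd' : oy ρ d ∈ D ρ B := (D ρ B).add_mem hd (D_stable h hd y)
  have key : ∀ u ∈ U ρ, ∀ k, B (oy ρ d) (v ρ k u + ρ y (v ρ k u)) = 0 := by
    intro u hu k
    rw [rho_v hu, map_add, hd' u hu ((y : Perm (Fin 8)) k) k, add_k h]
  obtain ⟨u1, h1, u2, h2, rfl⟩ := mem_P.1 hp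
  rw [h.symm]
  have e : oy ρ (v ρ 6 u1 + u2) = (v ρ 6 u1 + ρ y (v ρ 6 u1)) + (v ρ 7 u2 + ρ y (v ρ 7 u2)) := by
    rw [oy_apply, map_add, v_seven]
    abel
  rw [e, map_add, key u1 h1, key u2 h2, add_zero]

theorem dim_D6 (h : Hyp ρ B) : finrank K ↥(W6 ρ ⊓ D ρ B) ≤ 4 ∧ W6 ρ ⊓ D ρ B = P ρ := by
  have hPD := P_le h
  have h1 : finrank K ↥((P ρ).map (oy ρ)) = finrank K ↥(P ρ) :=
    finrank_map _ _ fun w hw h0 => oy_inj h (hPD hw).1 h0
  have h2 : finrank K ↥((W6 ρ ⊓ D ρ B).map (oy ρ)) = finrank K ↥(W6 ρ ⊓ D ρ B) :=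
    finrank_map _ _ fun w hw h0 => oy_inj h hw.1 h0
  have h3 := perp_bound B (N ρ) ((P ρ).map (oy ρ)) ((W6 ρ ⊓ D ρ B).map (oy ρ))
    (by rintro _ ⟨w, hw, rfl⟩; exact map_N h (hPD hw).1)
    (by rintro _ ⟨w, hw, rfl⟩; exact map_N h hw.1)
    (N_nd h)
    (by rintro _ ⟨p, hp, rfl⟩ _ ⟨d, hd, rfl⟩; exact B_oy h hp hd.2)
  have h4 := dim_N h
  have h5 := dim_P h
  have h6 := dim_U h
  have h7 := Submodule.finrank_mono hPD
  have h8 : finrank K ↥(W6 ρ ⊓ D ρ B) ≤ 4 := by omega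
  refine ⟨h8, ?_⟩
  exact (Submodule.eq_of_le_of_finrank_le hPD (by omega)).symm

/-! ### The values of the form -/

theorem B_low (h : Hyp ρ B) {w u : W} (hw : w ∈ W6 ρ) (hu : u ∈ U ρ) {i j : Fin 8} (hi6 : i ≠ 6) (hi7 : i ≠ 7)
    (hj6 : j ≠ 6) (hj7 : j ≠ 7) : B w (v ρ i u) = B w (v ρ j u) := by
  obtain ⟨a, a6, a7, ha⟩ := exists_one i j hi6 hi7 hj6 hj7
  have h1 := B_rho h hu a w i
  rw [hw a a6 a7, ha] at h1
  exact h1.symm

theorem B_67 (h : Hyp ρ B) {w u : W} (hw : w ∈ W6 ρ) (hu : u ∈ U ρ) : B w (v ρ 6 u) = B w (v ρ 7 u) := by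
  have h1 : B w (∑ k, v ρ k u) = 0 := by rw [sum_v h hu, map_zero]
  rw [map_sum, Fin.sum_univ_eight] at h1
  rw [B_low h hw hu (i := 1) (j := 0) (by decide) (by decide) (by decide) (by decide),
    B_low h hw hu (i := 2) (j := 0) (by decide) (by decide) (by decide) (by decide),
    B_low h hw hu (i := 3) (j := 0) (by decide) (by decide) (by decide) (by decide),
    B_low h hw hu (i := 4) (j := 0) (by decide) (by decide) (by decide) (by decide),
    B_low h hw hu (i := 5) (j := 0) (by decide) (by decide) (by decide) (by decide)] at h1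
  have h2 := add_k h (B w (v ρ 0 u))
  have h3 := add_k h (B w (v ρ 7 u))
  linear_combination h1 - 3 * h2 - h3

theorem mem_D_of (h : Hyp ρ B) {w : W} (hw : w ∈ W6 ρ) (h0 : ∀ u ∈ U ρ, B w (v ρ 0 u) = B w (v ρ 7 u)) :
    w ∈ D ρ B := by
  intro u hu
  have key : ∀ i, B w (v ρ i u) = B w (v ρ 7 u) := by
    intro i
    by_cases h7 : i = 7
    · rw [h7]
    by_cases h6 : i = 6
    · rw [h6, B_67 h hw hu]
    rw [← h0 u hu]
    exact B_low h hw hu h6 h7 (by decide) (by decide)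
  intro i j
  rw [key i, key j]

/-! ### The translates of a vector fixed by `S₆` -/

theorem exists_tr2 {w : W} (hw : w ∈ W6 ρ) (ht : ρ t w = w) :
    ∃ f : Finset (Fin 8) → W, ∀ g : A 8, f {(g : Perm (Fin 8)) 6, (g : Perm (Fin 8)) 7} = ρ g w := by
  classical
  have key : ∀ g g' : A 8, ({(g : Perm (Fin 8)) 6, (g : Perm (Fin 8)) 7} : Finset (Fin 8)) =
      {(g' : Perm (Fin 8)) 6, (g' : Perm (Fin 8)) 7} → ρ g w = ρ g' w := by
    intro g g' hgg
    have hr : ∀ a : A 8, ρ a w = w → ρ (g' * a) w = ρ g' w := fun a ha => by rw [rho_mul, ha]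
    have e : g = g' * (g'⁻¹ * g) := by group
    rw [e]
    apply hr
    have h6 : (g : Perm (Fin 8)) 6 ∈ ({(g' : Perm (Fin 8)) 6, (g' : Perm (Fin 8)) 7} : Finset (Fin 8)) := by
      rw [← hgg]; simp
    have h7 : (g : Perm (Fin 8)) 7 ∈ ({(g' : Perm (Fin 8)) 6, (g' : Perm (Fin 8)) 7} : Finset (Fin 8)) := by
      rw [← hgg]; simp
    have hne : (g : Perm (Fin 8)) 6 ≠ (g : Perm (Fin 8)) 7 := fun h => by
      have := (g : Perm (Fin 8)).injective h
      exact absurd this (by decide)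
    have hi : ∀ {i j : Fin 8}, (g : Perm (Fin 8)) i = (g' : Perm (Fin 8)) j →
        ((g'⁻¹ * g : A 8) : Perm (Fin 8)) i = j := by
      intro i j hij
      show ((g' : Perm (Fin 8))⁻¹ * (g : Perm (Fin 8))) i = j
      rw [Perm.mul_apply, Perm.inv_eq_iff_eq, hij]
    rw [Finset.mem_insert, Finset.mem_singleton] at h6 h7
    rcases h6 with h6 | h6
    · rcases h7 with h7 | h7
      · exact absurd (h6.trans h7.symm) hne
      · exact hw _ (hi h6) (hi h7)
    · rcases h7 with h7 | h7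
      · have h1 : ρ (g'⁻¹ * g * t) w = w := by
          apply hw
          · show ((g'⁻¹ * g : A 8) : Perm (Fin 8)) ((t : Perm (Fin 8)) 6) = 6
            rw [t6]
            exact hi h7
          · show ((g'⁻¹ * g : A 8) : Perm (Fin 8)) ((t : Perm (Fin 8)) 7) = 7
            rw [t7]
            exact hi h6
        rwa [rho_mul, ht] at h1
      · exact absurd (h6.trans h7.symm) hne
  refine ⟨fun s => if hs : ∃ g : A 8, s = {(g : Perm (Fin 8)) 6, (g : Perm (Fin 8)) 7} then ρ hs.choose w else 0,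
    fun g => ?_⟩
  have hs : ∃ g' : A 8, ({(g : Perm (Fin 8)) 6, (g : Perm (Fin 8)) 7} : Finset (Fin 8)) =
    {(g' : Perm (Fin 8)) 6, (g' : Perm (Fin 8)) 7} := ⟨g, rfl⟩
  show (if hs : ∃ g' : A 8, ({(g : Perm (Fin 8)) 6, (g : Perm (Fin 8)) 7} : Finset (Fin 8)) =
    {(g' : Perm (Fin 8)) 6, (g' : Perm (Fin 8)) 7} then ρ hs.choose w else 0) = _
  rw [dif_pos hs]
  exact (key _ _ hs.choose_spec).symm

/-- the 2-subsets -/
def S2 : Finset (Finset (Fin 8)) := Finset.univ.filter fun s => s.card = 2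

theorem card_in : (S2.filter fun s => 7 ∈ s).card = 7 := by decide +kernel

theorem card_out : (S2.filter fun s => ¬ 7 ∈ s).card = 21 := by decide +kernel

section
variable {w : W} (hw : w ∈ W6 ρ) {f : Finset (Fin 8) → W}
  (hf : ∀ g : A 8, f {(g : Perm (Fin 8)) 6, (g : Perm (Fin 8)) 7} = ρ g w)
include hf

theorem f_map (g : A 8) {s : Finset (Fin 8)} (hs : s ∈ S2) :
    ρ g (f s) = f (Equiv.finsetCongr (g : Perm (Fin 8)) s) := by
  rw [S2, Finset.mem_filter] at hs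
  obtain ⟨i, j, hij, rfl⟩ := Finset.card_eq_two.1 hs.2
  obtain ⟨a, rfl, rfl⟩ := exists_two i j hij
  rw [hf a, ← rho_mul, ← hf (g * a), Equiv.finsetCongr_apply, Finset.map_insert, Finset.map_singleton]
  rfl

theorem sum_map (g : A 8) (p : Finset (Fin 8) → Prop) [DecidablePred p]
    (hp : ∀ s, p s ↔ p (Equiv.finsetCongr (g : Perm (Fin 8)) s)) :
    ρ g (∑ s ∈ S2.filter p, f s) = ∑ s ∈ S2.filter p, f s := by
  rw [map_sum]
  refine Finset.sum_equiv (Equiv.finsetCongr (g : Perm (Fin 8))) (fun s => ?_) fun s hs => ?_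
  · rw [Finset.mem_filter, Finset.mem_filter, S2, Finset.mem_filter, Finset.mem_filter, ← hp s]
    have : (Equiv.finsetCongr (g : Perm (Fin 8)) s).card = s.card := by
      rw [Equiv.finsetCongr_apply, Finset.card_map]
    rw [this]
    simp
  · exact f_map hf g (Finset.mem_filter.1 hs).1

theorem mem_map7 {g : A 8} (hg : (g : Perm (Fin 8)) 7 = 7) (s : Finset (Fin 8)) :
    7 ∈ s ↔ 7 ∈ Equiv.finsetCongr (g : Perm (Fin 8)) s := by
  rw [Equiv.finsetCongr_apply, Finset.mem_map_equiv]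
  have : (g : Perm (Fin 8)).symm 7 = 7 := by rw [Equiv.symm_apply_eq, hg]
  rw [this]

theorem sum_in_mem : ∑ s ∈ S2.filter (fun s => 7 ∈ s), f s ∈ U ρ := fun g hg =>
  sum_map hf g _ (mem_map7 hf hg)

theorem sum_out_mem : ∑ s ∈ S2.filter (fun s => ¬ 7 ∈ s), f s ∈ U ρ := fun g hg =>
  sum_map hf g _ fun s => not_congr (mem_map7 hf hg s)

theorem sum_eq (h : Hyp ρ B) : ∑ s ∈ S2.filter (fun s => 7 ∈ s), f s = ∑ s ∈ S2.filter (fun s => ¬ 7 ∈ s), f s := by
  have h1 : ∑ s ∈ S2.filter (fun s => 7 ∈ s), f s + ∑ s ∈ S2.filter (fun s => ¬ 7 ∈ s), f s = 0 := by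
    rw [Finset.sum_filter_add_sum_filter_not]
    apply zero_of_all h
    intro g
    have := sum_map hf g (fun _ => True) (fun _ => Iff.rfl)
    simpa using this
  rw [eq_neg_of_add_eq_zero_left h1, neg_eq h]

include hw

theorem B_in (h : Hyp ρ B) {u : W} (hu : u ∈ U ρ) :
    B (∑ s ∈ S2.filter (fun s => 7 ∈ s), f s) (v ρ 7 u) = B w (v ρ 7 u) := by
  rw [map_sum, LinearMap.sum_apply]
  have key : ∀ s ∈ S2.filter (fun s => 7 ∈ s), B (f s) (v ρ 7 u) = B w (v ρ 7 u) := by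
    intro s hs
    rw [Finset.mem_filter, S2, Finset.mem_filter] at hs
    obtain ⟨i, j, hij, rfl⟩ := Finset.card_eq_two.1 hs.1.2
    have key2 : ∀ i : Fin 8, i ≠ 7 → B (f {i, 7}) (v ρ 7 u) = B w (v ρ 7 u) := by
      intro i hi
      obtain ⟨a, rfl, a7⟩ := exists_two i 7 hi
      have h1 := hf a
      rw [a7] at h1
      rw [h1]
      have h2 := B_rho h hu a w 7
      rw [a7] at h2
      exact h2
    rcases Finset.mem_insert.1 hs.2 with h7 | h7
    · rw [← h7, Finset.pair_comm]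
      exact (by
        have := key2 j (by rw [h7]; exact hij.symm)
        rw [h7] at this ⊢
        rwa [← h7] at this ⊢)
    · rw [Finset.mem_singleton] at h7
      rw [← h7] at hij ⊢
      exact key2 i hij
  rw [Finset.sum_congr rfl key, Finset.sum_const, card_in, nsmul_eq_mul]
  have := add_k h (B w (v ρ 7 u))
  push_cast
  linear_combination 3 * this

theorem B_out (h : Hyp ρ B) {u : W} (hu : u ∈ U ρ) :
    B (∑ s ∈ S2.filter (fun s => ¬ 7 ∈ s), f s) (v ρ 7 u) = B w (v ρ 0 u) := by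
  rw [map_sum, LinearMap.sum_apply]
  have key : ∀ s ∈ S2.filter (fun s => ¬ 7 ∈ s), B (f s) (v ρ 7 u) = B w (v ρ 0 u) := by
    intro s hs
    rw [Finset.mem_filter, S2, Finset.mem_filter] at hs
    obtain ⟨i, j, hij, rfl⟩ := Finset.card_eq_two.1 hs.1.2
    obtain ⟨a, rfl, rfl⟩ := exists_two i j hij
    rw [hf a]
    have h7 := hs.2
    rw [Finset.mem_insert, Finset.mem_singleton, not_or] at h7
    have h1 := B_rho h hu a w ((a : Perm (Fin 8))⁻¹ 7)
    have h2 : (a : Perm (Fin 8)) ((a : Perm (Fin 8))⁻¹ 7) = 7 := by simp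
    rw [h2] at h1
    rw [h1]
    refine B_low h hw hu ?_ ?_ (by decide) (by decide)
    · intro h3
      rw [h3] at h2
      exact h7.1 h2.symm
    · intro h3
      rw [h3] at h2
      exact h7.2 h2.symm
  rw [Finset.sum_congr rfl key, Finset.sum_const, card_out, nsmul_eq_mul]
  have := add_k h (B w (v ρ 0 u))
  push_cast
  linear_combination 10 * this

end

theorem mem_D_of_t (h : Hyp ρ B) {w : W} (hw : w ∈ W6 ρ) (ht : ρ t w = w) : w ∈ D ρ B := by
  obtain ⟨f, hf⟩ := exists_tr2 hw ht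
  apply mem_D_of h hw
  intro u hu
  rw [← B_in hw hf h hu, ← B_out hw hf h hu, sum_eq hf h]

theorem W6_t {w : W} (hw : w ∈ W6 ρ) : ρ t w ∈ W6 ρ := by
  intro g h6 h7
  have h1 := hw (t * g * t) (by
    show (t : Perm (Fin 8)) ((g : Perm (Fin 8)) ((t : Perm (Fin 8)) 6)) = 6
    rw [t6, h7, t7]) (by
    show (t : Perm (Fin 8)) ((g : Perm (Fin 8)) ((t : Perm (Fin 8)) 7)) = 7
    rw [t7, h6, t6])
  have h2 := congrArg (ρ t) h1
  rw [← rho_mul, ← mul_assoc, ← mul_assoc, tt, one_mul, rho_mul] at h2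
  exact h2

theorem tt_apply (w : W) : ρ t (ρ t w) = w := by rw [← rho_mul, tt, rho_one]

theorem W6_le_D (h : Hyp ρ B) : W6 ρ ≤ D ρ B := by
  intro w hw
  have h1 : w + ρ t w ∈ W6 ρ ⊓ D ρ B := by
    refine ⟨(W6 ρ).add_mem hw (W6_t hw), mem_D_of h ((W6 ρ).add_mem hw (W6_t hw)) fun u hu => ?_⟩
    have e : ∀ k, B (ρ t w) (v ρ ((t : Perm (Fin 8)) k) u) = B w (v ρ k u) := fun k => B_rho h hu t w k
    have e0 := e 1
    rw [show (t : Perm (Fin 8)) 1 = 0 by decide +kernel,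
      B_low h hw hu (i := 1) (j := 0) (by decide) (by decide) (by decide) (by decide)] at e0
    have e7 := e 6
    rw [t6, B_67 h hw hu] at e7
    rw [map_add, LinearMap.add_apply, LinearMap.add_apply, e0, e7, add_k h, add_k h]
  rw [(dim_D6 h).2] at h1
  obtain ⟨u1, hu1, u2, hu2, h2⟩ := mem_P.1 h1
  have hv6 : ∀ u ∈ U ρ, ρ t (v ρ 6 u) = u := fun u hu => by rw [rho_v hu, t6, v_seven]
  have hv7 : ∀ u ∈ U ρ, ρ t u = v ρ 6 u := fun u hu => by
    have := rho_v hu t 7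
    rwa [t7, v_seven] at this
  have h3 : v ρ 6 (u1 + u2) = u1 + u2 := by
    have h4 := congrArg (ρ t) h2
    rw [map_add, map_add, tt_apply, hv6 u1 hu1, hv7 u2 hu2, add_comm, h2] at h4
    rw [map_add]
    have h5 := congrArg (fun z => z + (u2 + v ρ 6 u2)) h4
    have e1 : v ρ 6 u1 + u2 + (u2 + v ρ 6 u2) = (v ρ 6 u1 + v ρ 6 u2) + (u2 + u2) := by abel
    have e2 : u1 + v ρ 6 u2 + (u2 + v ρ 6 u2) = (u1 + u2) + (v ρ 6 u2 + v ρ 6 u2) := by abel
    simp only [e1, e2, two_smul_zero h, add_zero] at h5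
    exact h5
  have h4 : u1 + u2 = 0 := zero_of_v6 h ((U ρ).add_mem hu1 hu2) ((U ρ).add_mem hu1 hu2) h3
  have h5 : u2 = u1 := by rw [eq_neg_of_add_eq_zero_right h4, neg_eq h]
  rw [h5] at h2
  have h6 : ρ t (w + v ρ 6 u1) = w + v ρ 6 u1 := by
    rw [map_add, hv6 u1 hu1]
    have h7 := congrArg (fun z => z + (w + u1)) h2
    have e1 : w + ρ t w + (w + u1) = (w + w) + (ρ t w + u1) := by abel
    have e2 : v ρ 6 u1 + u1 + (w + u1) = (w + v ρ 6 u1) + (u1 + u1) := by abel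
    simp only [e1, e2, two_smul_zero h, zero_add, add_zero] at h7
    exact h7
  have h7 := mem_D_of_t h ((W6 ρ).add_mem hw (v6_mem_W6 hu1)) h6
  have h8 := (D ρ B).sub_mem h7 (v_mem_D h hu1 6)
  rwa [add_sub_cancel_right] at h8

/-- **the hypotheses `Hyp` are contradictory** -/
theorem core (h : Hyp ρ B) : False := by
  have h1 := (dim_D6 h).1
  rw [inf_eq_left.2 (W6_le_D h)] at h1
  have h2 := dim_W6 h
  omega

end Cfsg.Agent.R2.T1.T3
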