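import Mathlib
import Cfsg.Agent.R2.T1.T3.Core2
import Cfsg.Agent.R2.T1.Inf.Form
import Cfsg.Agent.R2.T1.Inf.Cnt

/-!
# T1, pattern T3 (helper25)

* `T3.false` : the pattern `(3-cycle, 3², 5, 7, 15) = (32, 20, 16, 8, 8)` in characteristic 2, `n = 8`, is impossible.
-/

set_option autoImplicit false

namespace Cfsg.Agent.R2.T1.T3

open Cfsg Cfsg.Lie Module Equiv Equiv.Perm
open Cfsg.Agent.H943.E7V.Block (D1)
open Cfsg.Agent.H952.F4 (ev es MaxAlt)
open Cfsg.Agent.R2.T1

universe u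

/-- **pattern T3 is impossible** -/
theorem false {F : Type u} [Field F] [Finite F] (h2 : (2 : F) = 0) {H : Subgroup ↥(chevE7.group F)}
    {φ : ↥(alternatingGroup (Fin 8)) →* ↥(chevE7.group F)} (hM : MaxAlt H 8 φ)
    {ψ : ↥(alternatingGroup (Fin 8)) →* Gh F} (hψ : Lift φ ψ)
    (h3 : ∀ a : ↥(alternatingGroup (Fin 8)), (a : Perm (Fin 8)).cycleType = {3} → ev (V F (ψ a)) 1 = 32)
    (h33 : ∀ a : ↥(alternatingGroup (Fin 8)), (a : Perm (Fin 8)).cycleType = {3, 3} → ev (V F (ψ a)) 1 = 20)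
    (h5 : ∀ a : ↥(alternatingGroup (Fin 8)), (a : Perm (Fin 8)).cycleType = {5} → ev (V F (ψ a)) 1 = 16)
    (h7 : ∀ a : ↥(alternatingGroup (Fin 8)), (a : Perm (Fin 8)).cycleType = {7} → ev (V F (ψ a)) 1 = 8)
    (h53 : ∀ a : ↥(alternatingGroup (Fin 8)), (a : Perm (Fin 8)).cycleType = {5, 3} → ev (V F (ψ a)) 1 = 8) :
    False := by
  refine core (ρ := (MonoidHom.comp (V F) ψ : Representation F (A 8) (D1 → F))) (B := sf F) ?_
  exact
    { two := h2
      dim := finrank_V
      nd := fun v hv => sf_nondeg' hv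
      inv := fun g v w => sf_V (ψ g) v w
      symm := fun v w => by
        rw [sf_swap]
        have : sf F w v + sf F w v = 0 := by rw [← two_mul, h2, zero_mul]
        exact neg_eq_of_add_eq_zero_left this
      fix := no_fixed hM (by norm_num) (by norm_num) hψ
      c3 := h3
      c33 := h33
      c5 := h5
      c7 := h7
      c53 := h53 }

end Cfsg.Agent.R2.T1.T3
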